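import Cfsg.Agent.LThreeCo1.Ranks
import Cfsg.Agent.H630.Ore.Co1.LThree
import Cfsg.Agent.KFacts.Co1D4.TwoB

/-!
# Elements of order three of `Co₁` commute with an involution (helper868, piece E8d of S2491 / S2492)
-/

set_option autoImplicit false

open Subgroup

namespace Cfsg.Agent.H868.QS

open Cfsg Cfsg.Agent.SporadicStructure.Co0Matrix Cfsg.Agent.CoOneType.CoEval
open Cfsg.Agent.LThreeMB (fr fr_conj ClassOf)
open Cfsg.Agent.LThreeCo1.Ev Cfsg.Agent.LThreeCo1.Class Cfsg.Agent.LThreeCo1.Rel Cfsg.Agent.LThreeCo1.AGrp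
open Cfsg.Agent.LThreeCo1.Ranks
open Cfsg.Agent.CoOneType.ClosingFacts (mk)
open Cfsg.Spor (Co1)

namespace Even

/-- the value of a word -/
noncomputable def vl (w : List ℕ) : Co1 := (w.map fun i => pr (e i)).prod

theorem vl_append (u v : List ℕ) : vl (u ++ v) = vl u * vl v := by
  rw [vl, vl, vl, List.map_append, List.prod_append]

theorem vl_rep (w : List ℕ) (n : ℕ) : vl (List.replicate n w).flatten = vl w ^ n := by
  induction n with
  | zero => simp [vl]
  | succ n ih => rw [List.replicate_succ, List.flatten_cons, vl_append, ih, pow_succ']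

/-- a commuting element of order two -/
def EvC (s : Co1) : Prop := ∃ t : Co1, orderOf t = 2 ∧ t * s = s * t

theorem EvC.conj {s : Co1} (h : EvC s) (g : Co1) : EvC (g * s * g⁻¹) := by
  obtain ⟨t, ht, hts⟩ := h
  refine ⟨g * t * g⁻¹, ?_, ?_⟩
  · rw [← ht]
    exact MulEquiv.orderOf_eq (MulAut.conj g) t
  · calc g * t * g⁻¹ * (g * s * g⁻¹) = g * (t * s) * g⁻¹ := by group
      _ = g * (s * t) * g⁻¹ := by rw [hts]
      _ = g * s * g⁻¹ * (g * t * g⁻¹) := by group

/-- the check -/
theorem evC_of {w c : List ℕ} {n : ℕ} (h1 : sameB M (w ++ c) (c ++ w) = true)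
    (h2 : relB M (List.replicate (2 * n) w).flatten = true) (h3 : neB M (List.replicate n w).flatten = true) : EvC (vl c) := by
  have hc : vl w * vl c = vl c * vl w := by
    rw [← vl_append, ← vl_append]
    exact eq_of_sameB rep h1
  refine ⟨vl w ^ n, ?_, ((show Commute (vl w) (vl c) from hc).pow_left n).eq⟩
  refine orderOf_eq_prime (p := 2) ?_ ?_
  · rw [← pow_mul, mul_comm n 2, ← vl_rep]
    exact eq_one_of_relB rep h2
  · rw [← vl_rep]
    exact ne_one_of_neB rep h3

theorem vl_c6 : vl (wd 79) = mk c6 := (map_prod_pr e _).trans (congrArg pr w79)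
theorem vl_c12 : vl (wd 4) = mk c12 := (map_prod_pr e _).trans (congrArg pr w4)

theorem ev_c6 : EvC (mk c6) := by
  rw [← vl_c6]
  exact evC_of (w := [8, 11, 11, 8, 8, 11, 8]) (n := 12) (by decide +kernel) (by decide +kernel) (by decide +kernel)

theorem ev_c12 : EvC (mk c12) := by
  rw [← vl_c12]
  exact evC_of (w := [7, 11, 7, 11]) (n := 6) (by decide +kernel) (by decide +kernel) (by decide +kernel)

theorem order_mk {c : Co0} (hc : orderOf c = 3) : orderOf (mk c) = 3 := by
  refine orderOf_eq_prime (p := 3) ?_ ?_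
  · have h : c ^ 3 = 1 := by rw [← hc, pow_orderOf_eq_one]
    show CoOneType.ClosingFacts.mk (c ^ 3) = 1
    rw [h]; rfl
  · intro h
    rcases (CoOneType.ClosingFacts.mk_eq_one c).1 h with h1 | h1
    · rw [h1, orderOf_one] at hc
      norm_num at hc
    · have h2 : c ^ 2 = 1 := by rw [h1, pow_two]; exact SporadicA.Co0Mono.signCo0_mul_self _
      have h3 := orderOf_dvd_of_pow_eq_one h2
      rw [hc] at h3
      norm_num at h3

open KFacts.Co1D4 H630.Ore.Co1.LThree

theorem orderOf_w : orderOf TwoB.w = 2 := orderOf_eq_prime (p := 2) (by rw [pow_two, TwoB.ww]) TwoB.w_ne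

theorem evC_L {s : Co1} (h : s ∈ GTwo.L) : EvC s := ⟨TwoB.w, orderOf_w, (TwoB.Lw s h).symm⟩

/-- **elements of order three commute with an involution** -/
theorem evC {s : Co1} (hs : orderOf s = 3) : EvC s := by
  have key : ∀ {n : ℕ} {t : Co1}, ClassOf n → orderOf t = 3 → fr t = n → fr s = n → EvC t → EvC s := by
    intro n t hC ht hft hfs h
    obtain ⟨g, hg⟩ := hC t s ht hs hft hfs
    rw [← hg]
    exact h.conj g
  have h3 : ∀ {l : List ℕ}, H630.Ore.Co1.LThree.F (Letters.val l) → Letters.val l ≠ 1 → orderOf (Letters.val l) = 3 :=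
    fun h h1 => order_three h.1 h1
  have hz1 : fr (Letters.val wc) = 1 := by
    have ho := order_three F_z.1 z_ne
    rw [val_eq_mk] at ho ⊢
    exact H630.Ore.Co1.Tr.fr_of_96 ho (by rw [PreUniqCo.TrWord.tr8_word Letters.hM, pc])
  have hx8 : fr (Letters.val wa) = 2 ^ 8 := by
    have ho := order_three F_x.1 x_ne
    rw [val_eq_mk] at ho ⊢
    exact H630.Ore.Co1.Tr.fr_of_zero ho (by rw [PreUniqCo.TrWord.tr8_word Letters.hM, pa])
  rcases ranks s hs with h | h | h | h
  · exact key zero (h3 F_z z_ne) hz1 h (evC_L z_mem)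
  · exact key six (order_mk order_c6) fr_c6 h ev_c6
  · exact key eight (h3 F_x x_ne) hx8 h (evC_L x_mem)
  · exact key twelve (order_mk order_c12) fr_c12 h ev_c12

end Even

end Cfsg.Agent.H868.QS
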