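import Cfsg.Agent.H868.QS.Eig
import Cfsg.Agent.H419.LeechIrr
import Cfsg.Agent.CoFive.FixRank
import Cfsg.Agent.CoFive.Ranks
import Cfsg.Agent.CpAutMSeven.RanksH
import Cfsg.Agent.BpSpor.MBigCo
import Cfsg.Agent.H451.Weak.MCo
import Cfsg.Agent.LThreeCo1.Ranks
import Cfsg.Agent.H264.QS.CoSieve

/-!
# Bounds for the trace on the 24-dimensional space (helper868, piece E8d of S2491 / S2492)

* `tr_le` : `y` of odd prime order `p` in `⟨mk x⟩`, `fr y = 2 ^ f`: `(p - 1) |tr8 x| ≤ 8 (24 + (p - 2) f)`;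
* `tr_le_sq` : `h ∈ ⟨mk x⟩`, `h ^ p` of order `p`, `fr (h ^ p) = 2 ^ f`: `|tr8 x| ≤ 8 f`.
-/

set_option autoImplicit false

open Subgroup

namespace Cfsg.Agent.H868.QS

open Cfsg Cfsg.Agent.SporadicA Cfsg.Agent.SporadicA.Co0Mono
open Cfsg.Agent.SporadicA.Co1Simple (allOne)
open Cfsg.Agent.CoOneType
open Cfsg.Agent.CoOneType.ClosingFacts (mk mk_mul mk_inv exists_mk mk_eq_one mk_eq)
open Cfsg.Agent.Co2Type.Mono (tr8)
open Cfsg.Agent.SigZeroCo2.Rank (fix mem_fix)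
open Cfsg.Agent.SigZeroCo2.Lin (rep Sp)
open Cfsg.Agent.LThreeMB (fr fr_conj)
open Cfsg.Spor (Co1)
open Module (finrank)

/-- the character -/
noncomputable def nuC : Co0 → ℂ := fun g => (tr8 g : ℂ) / 8

theorem isCharacter_nuC : IsCharacter Co0 nuC := H419.LeechIrr.isCharacter_lchi (MonoidHom.id Co0)

theorem rat_nuC (g : Co0) : ∃ q : ℚ, nuC g = q := ⟨(tr8 g : ℚ) / 8, by unfold nuC; push_cast; rfl⟩

theorem nuC_one : nuC 1 = (24 : ℕ) := by
  unfold nuC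
  rw [SigZeroCo2.Lin.tr8_one]
  norm_num

theorem norm_nuC (g : Co0) : ‖nuC g‖ = |(tr8 g : ℝ)| / 8 := by
  unfold nuC
  rw [norm_div]
  have h1 : (tr8 g : ℂ) = ((tr8 g : ℝ) : ℂ) := by push_cast; rfl
  rw [h1, Complex.norm_real, Real.norm_eq_abs]
  norm_num

theorem mk_pow (a : Co0) (k : ℕ) : mk (a ^ k) = mk a ^ k := rfl

/-- the power of `x` over a power of `mk x` of odd order -/
theorem exists_exp {x : Co0} {y : Co1} {p k : ℕ} (hp : Odd p) (hy : y ^ p = 1) (hk : mk x ^ k = y) :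
    mk (x ^ (k * (p + 1))) = y ∧ x ^ (k * (p + 1) * p) = 1 := by
  obtain ⟨c, hc⟩ := hp
  constructor
  · rw [mk_pow, pow_mul, hk, pow_succ, hy, one_mul]
  · have h1 : mk (x ^ (k * p)) = 1 := by rw [mk_pow, pow_mul, hk, hy]
    rw [show k * (p + 1) * p = k * p * 2 * (c + 1) by rw [hc]; ring, pow_mul, pow_mul]
    rcases (mk_eq_one _).1 h1 with h | h
    · rw [h, one_pow, one_pow]
    · rw [h, pow_two, signCo0_mul_self, one_pow]

theorem exists_nat_pow {g y : Co1} (h : y ∈ zpowers g) : ∃ k : ℕ, g ^ k = y := by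
  have : Finite Co1 := H264.QS.CoSieve.finite_co1
  obtain ⟨k, hk⟩ := (mem_powers_iff_mem_zpowers (x := g) (y := y)).2 h
  exact ⟨k, hk⟩

/-- the average of the traces of the powers -/
theorem sum_eq {z : Co0} {p f : ℕ} (hp : Odd p) (hz : z ^ p = 1) (hf : fr (mk z) = 2 ^ f) :
    ∑ i ∈ Finset.range p, nuC (z ^ i) = p * f := by
  have h0 : p ≠ 0 := by rintro rfl; exact absurd hp (by decide)
  have h1 := CoFive.FixRank.fr_eq hp hz
  have h2 : finrank ℚ (fix (rep z)) = f := by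
    have h3 : (2 : ℕ) ^ finrank ℚ (fix (rep z)) = 2 ^ f := by rw [← h1]; exact hf
    exact Nat.pow_right_injective le_rfl h3
  have h4 := CoFive.FixRank.mul_finrank h0 hz
  rw [h2] at h4
  have h5 : ((8 * (p : ℤ) * f : ℤ) : ℂ) = ((∑ i ∈ Finset.range p, tr8 (z ^ i) : ℤ) : ℂ) := by rw [h4]
  push_cast at h5
  unfold nuC
  rw [← Finset.sum_div, ← h5]
  ring

/-- **the first bound** -/
theorem tr_le {x : Co0} {y : Co1} {p f : ℕ} (hp : p.Prime) (hp2 : p ≠ 2) (hy : orderOf y = p) (hyx : y ∈ zpowers (mk x))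
    (hf : fr y = 2 ^ f) : f ≤ 24 ∧ ((p : ℤ) - 1) * |tr8 x| ≤ 8 * (24 + ((p : ℤ) - 2) * f) := by
  have := CpAutBig.CoZero.finite_co0
  have hodd : Odd p := hp.odd_of_ne_two hp2
  obtain ⟨k, hk⟩ := exists_nat_pow hyx
  obtain ⟨h1, h2⟩ := exists_exp hodd (by rw [← hy, pow_orderOf_eq_one]) hk
  have hN : orderOf x ≠ 0 := (orderOf_pos x).ne'
  obtain ⟨h3, h4⟩ := Eig.bound isCharacter_nuC rat_nuC nuC_one hN (pow_orderOf_eq_one x) (p := p) (m := k * (p + 1)) hp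
    (orderOf_dvd_of_pow_eq_one h2) (f := f) (by
      have h5 := sum_eq (z := x ^ (k * (p + 1))) (p := p) (f := f) hodd (by rw [← pow_mul]; exact h2) (by rw [h1]; exact hf)
      rw [← h5]
      exact Finset.sum_congr rfl fun i _ => by rw [pow_mul])
  refine ⟨h3, ?_⟩
  rw [norm_nuC] at h4
  have h5 : (((p : ℤ) - 1) * |tr8 x| : ℝ) ≤ (8 * (24 + ((p : ℤ) - 2) * f) : ℝ) := by
    push_cast at h4 ⊢
    linarith
  exact_mod_cast h5

/-- **the second bound** -/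
theorem tr_le_sq {x : Co0} {h : Co1} {p f : ℕ} (hp : p.Prime) (hp2 : p ≠ 2) (hy : (h ^ p) ^ p = 1) (hyx : h ∈ zpowers (mk x))
    (hf : fr (h ^ p) = 2 ^ f) : |tr8 x| ≤ 8 * f := by
  have := CpAutBig.CoZero.finite_co0
  have hodd : Odd p := hp.odd_of_ne_two hp2
  obtain ⟨k, hk⟩ := exists_nat_pow hyx
  obtain ⟨h1, h2⟩ := exists_exp (k := k * p) hodd hy (by rw [pow_mul, hk])
  have hN : orderOf x ≠ 0 := (orderOf_pos x).ne'
  have h4 := Eig.bound_sq isCharacter_nuC rat_nuC hN (pow_orderOf_eq_one x) (p := p) (m := k * p * (p + 1)) hp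
    (orderOf_dvd_of_pow_eq_one h2) ⟨k * (p + 1), by ring⟩ (f := f) (by
      have h5 := sum_eq (z := x ^ (k * p * (p + 1))) (p := p) (f := f) hodd (by rw [← pow_mul]; exact h2)
        (by rw [h1]; exact hf)
      rw [← h5]
      exact Finset.sum_congr rfl fun i _ => by rw [pow_mul])
  rw [norm_nuC] at h4
  have h5 : (|tr8 x| : ℝ) ≤ (8 * f : ℝ) := by linarith
  exact_mod_cast h5

/-! ### the primes -/

theorem tr_five {x : Co0} {y : Co1} (hy : orderOf y = 5) (hyx : y ∈ zpowers (mk x)) :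
    (fr y = 1 ∧ 8 * (-6) ≤ tr8 x) ∨ (fr y = 2 ^ 4 ∧ 8 * (-9) ≤ tr8 x) ∨ (fr y = 2 ^ 8 ∧ 8 * (-12) ≤ tr8 x) := by
  rcases CoFive.Ranks.ranks y hy with h | h | h
  · obtain ⟨-, h1⟩ := tr_le (p := 5) (f := 0) (by norm_num) (by norm_num) hy hyx (by rw [h, pow_zero])
    refine Or.inl ⟨h, ?_⟩
    have := neg_abs_le (tr8 x)
    push_cast at h1
    omega
  · obtain ⟨-, h1⟩ := tr_le (p := 5) (f := 4) (by norm_num) (by norm_num) hy hyx h
    refine Or.inr (Or.inl ⟨h, ?_⟩)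
    have := neg_abs_le (tr8 x)
    push_cast at h1
    omega
  · obtain ⟨-, h1⟩ := tr_le (p := 5) (f := 8) (by norm_num) (by norm_num) hy hyx h
    refine Or.inr (Or.inr ⟨h, ?_⟩)
    have := neg_abs_le (tr8 x)
    push_cast at h1
    omega

theorem tr_seven {x : Co0} {y : Co1} (hy : orderOf y = 7) (hyx : y ∈ zpowers (mk x)) : 8 * (-9) ≤ tr8 x := by
  have hab := neg_abs_le (tr8 x)
  rcases CpAutMSeven.RanksH.main hy with h | ⟨-, h⟩
  · obtain ⟨-, h1⟩ := tr_le (p := 7) (f := 0) (by norm_num) (by norm_num) hy hyx (by rw [h, pow_zero])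
    push_cast at h1
    omega
  · obtain ⟨-, h1⟩ := tr_le (p := 7) (f := 6) (by norm_num) (by norm_num) hy hyx h
    push_cast at h1
    omega

theorem exists_fr {y : Co1} {p : ℕ} (hp : Odd p) (hy : orderOf y = p) : ∃ f : ℕ, fr y = 2 ^ f := by
  obtain ⟨a, ha, hap⟩ := LThreeBX.NoSeven.exists_odd hp (show y ^ p = 1 by rw [← hy, pow_orderOf_eq_one])
  exact ⟨finrank ℚ (fix (rep a)), by rw [← ha]; exact CoFive.FixRank.fr_eq hp hap⟩

theorem tr_eleven {x : Co0} {y : Co1} (hy : orderOf y = 11) (hyx : y ∈ zpowers (mk x)) : 8 * (-6) ≤ tr8 x := by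
  have hab := neg_abs_le (tr8 x)
  obtain ⟨f, hf⟩ := exists_fr (by decide) hy
  have h4 : f ≤ 4 := by
    have h1 := BpSpor.MBigCo.fr_le hy
    rw [hf] at h1
    exact (Nat.pow_le_pow_iff_right (by norm_num)).1 h1
  obtain ⟨-, h1⟩ := tr_le (p := 11) (f := f) (by norm_num) (by norm_num) hy hyx hf
  push_cast at h1
  have h5 : (f : ℤ) ≤ 4 := by exact_mod_cast h4
  omega

theorem tr_thirteen {x : Co0} {y : Co1} (hy : orderOf y = 13) (hyx : y ∈ zpowers (mk x)) : 8 * (-2) ≤ tr8 x := by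
  have hab := neg_abs_le (tr8 x)
  obtain ⟨-, h1⟩ := tr_le (p := 13) (f := 0) (by norm_num) (by norm_num) hy hyx
    (by rw [BpSpor.MBigCo.fr_thirteen hy, pow_zero])
  push_cast at h1
  omega

theorem tr_23 {x : Co0} {y : Co1} (hy : orderOf y = 23) (hyx : y ∈ zpowers (mk x)) : 8 * (-3) ≤ tr8 x := by
  have hab := neg_abs_le (tr8 x)
  obtain ⟨f, hf⟩ := exists_fr (by decide) hy
  have h4 : f ≤ 2 := by
    have h1 := H451.Weak.MCo.fr_le hy
    rw [hf] at h1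
    exact (Nat.pow_le_pow_iff_right (by norm_num)).1 h1
  obtain ⟨-, h1⟩ := tr_le (p := 23) (f := f) (by norm_num) (by norm_num) hy hyx hf
  push_cast at h1
  have h5 : (f : ℤ) ≤ 2 := by exact_mod_cast h4
  omega

/-- order three with 256 fixed points -/
theorem tr_three {x : Co0} {y : Co1} (hy : orderOf y = 3) (hyx : y ∈ zpowers (mk x)) (hf : fr y = 2 ^ 8) :
    8 * (-16) ≤ tr8 x := by
  have hab := neg_abs_le (tr8 x)
  obtain ⟨-, h1⟩ := tr_le (p := 3) (f := 8) (by norm_num) (by norm_num) hy hyx hf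
  push_cast at h1
  omega

/-- order nine -/
theorem tr_nine {x : Co0} {h : Co1} (hh : orderOf h = 9) (hhx : h ∈ zpowers (mk x)) :
    (fr (h ^ 3) = 1 ∧ 8 * 0 ≤ tr8 x) ∨ (fr (h ^ 3) = 2 ^ 6 ∧ 8 * (-6) ≤ tr8 x) ∨ (fr (h ^ 3) = 2 ^ 8 ∧ 8 * (-8) ≤ tr8 x) ∨
      (fr (h ^ 3) = 2 ^ 12 ∧ 8 * (-12) ≤ tr8 x) := by
  have hab := neg_abs_le (tr8 x)
  have h3 : orderOf (h ^ 3) = 3 := by rw [orderOf_pow_of_dvd (by norm_num) (by rw [hh]; norm_num), hh]
  have h33 : (h ^ 3) ^ 3 = 1 := by rw [← pow_mul, show 3 * 3 = 9 by norm_num, ← hh, pow_orderOf_eq_one]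
  rcases LThreeCo1.Ranks.ranks (h ^ 3) h3 with h4 | h4 | h4 | h4
  · have h1 := tr_le_sq (p := 3) (f := 0) (by norm_num) (by norm_num) h33 hhx (by rw [h4, pow_zero])
    refine Or.inl ⟨h4, ?_⟩
    push_cast at h1
    omega
  · have h1 := tr_le_sq (p := 3) (f := 6) (by norm_num) (by norm_num) h33 hhx h4
    refine Or.inr (Or.inl ⟨h4, ?_⟩)
    push_cast at h1
    omega
  · have h1 := tr_le_sq (p := 3) (f := 8) (by norm_num) (by norm_num) h33 hhx h4
    refine Or.inr (Or.inr (Or.inl ⟨h4, ?_⟩))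
    push_cast at h1
    omega
  · have h1 := tr_le_sq (p := 3) (f := 12) (by norm_num) (by norm_num) h33 hhx h4
    refine Or.inr (Or.inr (Or.inr ⟨h4, ?_⟩))
    push_cast at h1
    omega

end Cfsg.Agent.H868.QS
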