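import Cfsg.Agent.Characters.GaloisBasic
import Cfsg.Agent.Characters.SchurBound

/-!
# A bound for rational characters (helper868, piece E8d of S2491 / S2492)

`bound` : `χ` a character with rational values, `y = x ^ m` with `y ^ p = 1`, `f` the dimension of the fixed space of `y`:
`(p - 1) |χ x| ≤ (p - 1) f + (χ 1 - f)`.
-/

set_option autoImplicit false

namespace Cfsg.Agent.H868.QS.Eig

open Cfsg Finset
open Cfsg.Agent.Characters.GaloisBasic (isCharacter_exists_fin_pow)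
open Cfsg.Agent.Characters.SchurBound (value_pow)

theorem geom {p : ℕ} {z : ℂ} (hz : z ^ p = 1) : ∑ i ∈ range p, z ^ i = if z = 1 then (p : ℂ) else 0 := by
  split_ifs with h
  · subst h; simp
  · have h1 := mul_geom_sum z p
    rw [hz, sub_self] at h1
    exact (mul_eq_zero.1 h1).resolve_left (sub_ne_zero.2 h)

theorem norm_sum_le_card {d : ℕ} {F : Finset (Fin d)} {a : Fin d → ℂ} (h : ∀ j, ‖a j‖ = 1) : ‖∑ j ∈ F, a j‖ ≤ F.card := by
  refine (norm_sum_le _ _).trans ?_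
  rw [sum_congr rfl fun j _ => h j, sum_const, nsmul_eq_mul, mul_one]

/-- the exponents prime to the order -/
theorem coprime_of {N m p i : ℕ} (hp : p.Prime) (hN : N ∣ m * p) (h : ¬ p ∣ 1 + m * i) : (1 + m * i).Coprime N := by
  refine Nat.coprime_of_dvd fun q hq h1 h2 => ?_
  have h3 : q ∣ m ∨ q ∣ p := (Nat.Prime.dvd_mul hq).1 (h2.trans hN)
  rcases h3 with h3 | h3
  · have h4 : q ∣ 1 := (Nat.dvd_add_left (h3.mul_right i)).1 h1
    exact hq.one_lt.ne' (Nat.dvd_one.1 h4)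
  · rw [(Nat.prime_dvd_prime_iff_eq hq hp).1 h3] at h1
    exact h h1

/-- the exceptional exponent -/
theorem exists_exc {m p : ℕ} (hp : p.Prime) (h : ¬ p ∣ m) : ∃ i₀ < p, ∀ i < p, p ∣ 1 + m * i ↔ i = i₀ := by
  have hfact : Fact p.Prime := ⟨hp⟩
  have hm : (m : ZMod p) ≠ 0 := by rwa [Ne, ZMod.natCast_eq_zero_iff]
  refine ⟨(-(m : ZMod p)⁻¹).val, ZMod.val_lt _, fun i hi => ?_⟩
  rw [← ZMod.natCast_eq_zero_iff]
  push_cast
  constructor
  · intro h1
    have h2 : (i : ZMod p) = -(m : ZMod p)⁻¹ := by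
      have h3 : (m : ZMod p) * i = -1 := by linear_combination h1
      calc (i : ZMod p) = (m : ZMod p)⁻¹ * (m * i) := by rw [← mul_assoc, inv_mul_cancel₀ hm, one_mul]
        _ = -(m : ZMod p)⁻¹ := by rw [h3]; ring
    rw [← h2, ZMod.val_natCast_of_lt hi]
  · rintro rfl
    rw [ZMod.natCast_val, ZMod.cast_id]
    field_simp
    ring

variable {G : Type*} [Group G]

/-- **the bound** -/
theorem bound {χ : G → ℂ} (hχ : IsCharacter G χ) (hq : ∀ g, ∃ q : ℚ, χ g = q) {d : ℕ} (hd : χ 1 = d) {x : G} {N : ℕ}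
    (hN : N ≠ 0) (hx : x ^ N = 1) {p m : ℕ} (hp : p.Prime) (hpm : N ∣ m * p) {f : ℕ}
    (hf : ∑ i ∈ range p, χ (x ^ (m * i)) = p * f) :
    f ≤ d ∧ ((p : ℝ) - 1) * ‖χ x‖ ≤ ((p : ℝ) - 1) * f + (d - f) := by
  classical
  obtain ⟨d', μ, hd', hμ, hk⟩ := isCharacter_exists_fin_pow hχ x hN hx
  have hdd : d' = d := by
    have : (d' : ℂ) = d := by rw [← hd', hd]
    exact_mod_cast this
  subst hdd
  have hp0 : (p : ℂ) ≠ 0 := by exact_mod_cast hp.ne_zero
  have hnorm : ∀ j, ‖μ j‖ = 1 := fun j => Complex.norm_eq_one_of_pow_eq_one (hμ j) hN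
  have hnormp : ∀ j (k : ℕ), ‖μ j ^ k‖ = 1 := fun j k => by rw [norm_pow, hnorm, one_pow]
  have hw : ∀ j, (μ j ^ m) ^ p = 1 := by
    intro j
    obtain ⟨c, hc⟩ := hpm
    rw [← pow_mul, hc, pow_mul, hμ, one_pow]
  set F : Finset (Fin d') := univ.filter fun j => μ j ^ m = 1 with hF
  have hS : ∀ k : ℕ, ∑ i ∈ range p, χ (x ^ (k + m * i)) = p * ∑ j ∈ F, μ j ^ k := by
    intro k
    calc ∑ i ∈ range p, χ (x ^ (k + m * i)) = ∑ i ∈ range p, ∑ j, μ j ^ k * (μ j ^ m) ^ i := by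
          refine sum_congr rfl fun i _ => ?_
          rw [hk]
          refine sum_congr rfl fun j _ => ?_
          rw [pow_add, pow_mul]
      _ = ∑ j, μ j ^ k * ∑ i ∈ range p, (μ j ^ m) ^ i := by
          rw [sum_comm]
          refine sum_congr rfl fun j _ => ?_
          rw [mul_sum]
      _ = ∑ j, μ j ^ k * (if μ j ^ m = 1 then (p : ℂ) else 0) := by
          refine sum_congr rfl fun j _ => ?_
          rw [geom (hw j)]
      _ = ∑ j ∈ F, μ j ^ k * p := by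
          rw [hF, sum_filter]
          refine sum_congr rfl fun j _ => ?_
          split_ifs <;> simp
      _ = p * ∑ j ∈ F, μ j ^ k := by rw [← sum_mul, mul_comm]
  have hcard : F.card = f := by
    have h1 := hS 0
    simp only [zero_add, pow_zero, sum_const, nsmul_eq_mul, mul_one] at h1
    rw [hf] at h1
    have h2 := mul_left_cancel₀ hp0 h1
    exact_mod_cast h2.symm
  have hfd : f ≤ d' := by
    rw [← hcard]
    exact (card_le_univ F).trans (by rw [Fintype.card_fin])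
  refine ⟨hfd, ?_⟩
  have hfd' : (f : ℝ) ≤ d' := by exact_mod_cast hfd
  have hp1 : (1 : ℝ) ≤ p := by exact_mod_cast hp.one_lt.le
  have hS1 : ‖∑ j ∈ F, μ j‖ ≤ f := by
    rw [← hcard]
    exact norm_sum_le_card hnorm
  have h1 := hS 1
  simp only [pow_one] at h1
  obtain ⟨q, hqx⟩ := hq x
  have hval : ∀ i, ¬ p ∣ 1 + m * i → χ (x ^ (1 + m * i)) = χ x := fun i hi =>
    value_pow hχ x hqx hN hx (coprime_of hp hpm hi)
  by_cases hpd : p ∣ m
  · have h2 : ∀ i, ¬ p ∣ 1 + m * i := by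
      intro i hi
      have h4 : p ∣ 1 := (Nat.dvd_add_left (hpd.mul_right i)).1 hi
      exact hp.one_lt.ne' (Nat.dvd_one.1 h4)
    rw [sum_congr rfl fun i _ => hval i (h2 i), sum_const, card_range, nsmul_eq_mul] at h1
    rw [mul_left_cancel₀ hp0 h1]
    nlinarith
  · obtain ⟨i₀, hi₀, hexc⟩ := exists_exc hp hpd
    have h2 : ∑ i ∈ range p, χ (x ^ (1 + m * i)) = (p - 1) * χ x + χ (x ^ (1 + m * i₀)) := by
      rw [← sum_erase_add _ _ (mem_range.2 hi₀)]
      congr 1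
      rw [sum_congr rfl fun i hi => hval i (fun h => (mem_erase.1 hi).1 ((hexc i (mem_range.1 (mem_erase.1 hi).2)).1 h)),
        sum_const, card_erase_of_mem (mem_range.2 hi₀), card_range, nsmul_eq_mul, Nat.cast_sub hp.one_lt.le, Nat.cast_one]
    have h3 : χ (x ^ (1 + m * i₀)) = ∑ j ∈ F, μ j + ∑ j ∈ univ \ F, μ j ^ (1 + m * i₀) := by
      rw [hk, ← sum_sdiff (subset_univ F), add_comm]
      congr 1
      refine sum_congr rfl fun j hj => ?_
      have h4 : μ j ^ m = 1 := (mem_filter.1 hj).2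
      rw [pow_add, pow_one, pow_mul, h4, one_pow, mul_one]
    have h4 : ((p : ℂ) - 1) * χ x = (p - 1) * ∑ j ∈ F, μ j - ∑ j ∈ univ \ F, μ j ^ (1 + m * i₀) := by
      rw [h2, h3] at h1
      linear_combination h1
    have h5 : ‖∑ j ∈ univ \ F, μ j ^ (1 + m * i₀)‖ ≤ (d' - f : ℝ) := by
      refine (norm_sum_le_card (F := univ \ F) fun j => hnormp j _).trans ?_
      rw [card_sdiff_of_subset (subset_univ F), card_univ, Fintype.card_fin, hcard, Nat.cast_sub hfd]
    have h6 : ‖(p : ℂ) - 1‖ = (p : ℝ) - 1 := by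
      have : (p : ℂ) - 1 = ((p - 1 : ℝ) : ℂ) := by push_cast; ring
      rw [this, Complex.norm_real, Real.norm_of_nonneg (by linarith)]
    calc ((p : ℝ) - 1) * ‖χ x‖ = ‖((p : ℂ) - 1) * χ x‖ := by rw [norm_mul, h6]
      _ ≤ ‖((p : ℂ) - 1) * ∑ j ∈ F, μ j‖ + ‖∑ j ∈ univ \ F, μ j ^ (1 + m * i₀)‖ := by rw [h4]; exact norm_sub_le _ _
      _ ≤ ((p : ℝ) - 1) * f + (d' - f) := by
          rw [norm_mul, h6]
          have : ((p : ℝ) - 1) * ‖∑ j ∈ F, μ j‖ ≤ ((p : ℝ) - 1) * f := mul_le_mul_of_nonneg_left hS1 (by linarith)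
          linarith

/-- **`p ^ 2` divides the order** -/
theorem bound_sq {χ : G → ℂ} (hχ : IsCharacter G χ) (hq : ∀ g, ∃ q : ℚ, χ g = q) {x : G} {N : ℕ}
    (hN : N ≠ 0) (hx : x ^ N = 1) {p m : ℕ} (hp : p.Prime) (hpm : N ∣ m * p) (hpd : p ∣ m) {f : ℕ}
    (hf : ∑ i ∈ range p, χ (x ^ (m * i)) = p * f) : ‖χ x‖ ≤ f := by
  classical
  obtain ⟨d', μ, hd', hμ, hk⟩ := isCharacter_exists_fin_pow hχ x hN hx
  have hp0 : (p : ℂ) ≠ 0 := by exact_mod_cast hp.ne_zero
  have hnorm : ∀ j, ‖μ j‖ = 1 := fun j => Complex.norm_eq_one_of_pow_eq_one (hμ j) hN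
  have hw : ∀ j, (μ j ^ m) ^ p = 1 := by
    intro j
    obtain ⟨c, hc⟩ := hpm
    rw [← pow_mul, hc, pow_mul, hμ, one_pow]
  set F : Finset (Fin d') := univ.filter fun j => μ j ^ m = 1 with hF
  have hS : ∀ k : ℕ, ∑ i ∈ range p, χ (x ^ (k + m * i)) = p * ∑ j ∈ F, μ j ^ k := by
    intro k
    calc ∑ i ∈ range p, χ (x ^ (k + m * i)) = ∑ i ∈ range p, ∑ j, μ j ^ k * (μ j ^ m) ^ i := by
          refine sum_congr rfl fun i _ => ?_
          rw [hk]
          refine sum_congr rfl fun j _ => ?_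
          rw [pow_add, pow_mul]
      _ = ∑ j, μ j ^ k * ∑ i ∈ range p, (μ j ^ m) ^ i := by
          rw [sum_comm]
          refine sum_congr rfl fun j _ => ?_
          rw [mul_sum]
      _ = ∑ j, μ j ^ k * (if μ j ^ m = 1 then (p : ℂ) else 0) := by
          refine sum_congr rfl fun j _ => ?_
          rw [geom (hw j)]
      _ = ∑ j ∈ F, μ j ^ k * p := by
          rw [hF, sum_filter]
          refine sum_congr rfl fun j _ => ?_
          split_ifs <;> simp
      _ = p * ∑ j ∈ F, μ j ^ k := by rw [← sum_mul, mul_comm]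
  have hcard : F.card = f := by
    have h1 := hS 0
    simp only [zero_add, pow_zero, sum_const, nsmul_eq_mul, mul_one] at h1
    rw [hf] at h1
    have h2 := mul_left_cancel₀ hp0 h1
    exact_mod_cast h2.symm
  have h1 := hS 1
  simp only [pow_one] at h1
  obtain ⟨q, hqx⟩ := hq x
  have hval : ∀ i, ¬ p ∣ 1 + m * i → χ (x ^ (1 + m * i)) = χ x := fun i hi =>
    value_pow hχ x hqx hN hx (coprime_of hp hpm hi)
  have h2 : ∀ i, ¬ p ∣ 1 + m * i := by
    intro i hi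
    have h4 : p ∣ 1 := (Nat.dvd_add_left (hpd.mul_right i)).1 hi
    exact hp.one_lt.ne' (Nat.dvd_one.1 h4)
  rw [sum_congr rfl fun i _ => hval i (h2 i), sum_const, card_range, nsmul_eq_mul] at h1
  rw [mul_left_cancel₀ hp0 h1, ← hcard]
  exact norm_sum_le_card hnorm

end Cfsg.Agent.H868.QS.Eig
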