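import Cfsg.Agent.H630.Ore.Co1.Frame
import Cfsg.Agent.KFacts.Co1D4.Main
import Cfsg.Agent.H55.CoOneBd
import Cfsg.Agent.StdG24.CoSide

/-!
# `2.Co₁` (S2491, S2492): the elements of `C(w)` outside `Z × L` (helper868)

* `not_comm_v` : they do not commute with `v`;
* `half` : `2 |C(g)| ≤ |C(w) ∩ C(y)|` for a power `y` of odd order;
* `inf_le` : `|C(w) ∩ C(y)| ≤ |y| n`, `n` a bound for the centralizers of the involutions of `C(y) / ⟨y⟩`;
* `out3` : the bound for the class `3D` (`C(y) / ⟨y⟩ ≅ A₉`).
-/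

set_option autoImplicit false

open Subgroup

namespace Cfsg.Agent.H868.QS.Outer

open Cfsg Cfsg.Agent.KFacts.Co1D4
open Cfsg.Agent.LThreeMB (fr XX Zx)
open Cfsg.Agent.H630.Ore.Co1
open Cfsg.Agent.StdG24
open Cfsg.Spor (Co1)
open Equiv (Perm swap)

/-! ### an element of `C(w)` which does not commute with `v` -/

theorem exists_c : ∃ c : Co1, c * TwoB.w = TwoB.w * c ∧ c * TwoB.v ≠ TwoB.v * c := by
  have h1 : CoSide.val [9, 6] = CoSide.val [6, 9] := CoSide.rel (by decide +kernel)
  have h2 : CoSide.val [9, 12] = CoSide.val [6, 12, 9] := CoSide.rel (by decide +kernel)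
  simp only [CoSide.val, List.map_cons, List.map_nil, List.prod_cons, List.prod_nil, mul_one] at h1 h2
  refine ⟨CoOneType.CoEval.pr (CoSide.e 9), h1, fun h3 => ?_⟩
  have h4 : CoOneType.CoEval.pr (CoSide.e 9) * TwoB.v = TwoB.w * (TwoB.v * CoOneType.CoEval.pr (CoSide.e 9)) := h2
  rw [h3] at h4
  exact TwoB.w_ne (mul_eq_right.1 h4.symm)

theorem not_comm_v {g : Co1} (hw : g * TwoB.w = TwoB.w * g) (hg : g ∉ Main.setup.ZL) : g * TwoB.v ≠ TwoB.v * g := by
  have := LThree.fin_co1
  intro h
  obtain ⟨c, hc, hcv⟩ := exists_c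
  have hZ : ∀ a ∈ Main.setup.ZL, a * TwoB.v = TwoB.v * a := by
    intro a ha
    obtain ⟨b, hb, l, hl, rfl⟩ := Main.setup.mem_ZL.1 ha
    have h1 := Main.setup.cent_LZ l hl TwoB.v Main.setup.v_mem
    have h2 := Main.setup.Z_comm b hb TwoB.v Main.setup.v_mem
    rw [mul_assoc, h1, ← mul_assoc, h2, mul_assoc]
  have hcZ : c ∉ Main.setup.ZL := fun h1 => hcv (hZ c h1)
  have h1 : g * c ∈ Main.setup.ZL := (Main.setup.mul_mem_iff hw hc).2 ⟨fun h2 => absurd h2 hg, fun h2 => absurd h2 hcZ⟩
  have h2 := hZ _ h1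
  apply hcv
  have h3 : g * (c * TwoB.v) = g * (TwoB.v * c) := by
    calc g * (c * TwoB.v) = g * c * TwoB.v := by group
      _ = TwoB.v * (g * c) := h2
      _ = TwoB.v * g * c := by group
      _ = g * TwoB.v * c := by rw [h]
      _ = g * (TwoB.v * c) := by group
  exact mul_left_cancel h3

theorem comm_of_mem {g y : Co1} (h : y ∈ zpowers g) {c : Co1} (hc : c * g = g * c) : c * y = y * c := by
  obtain ⟨n, rfl⟩ := h
  exact ((show Commute c g from hc).zpow_right n).eq

theorem half {g y : Co1} (hw : TwoB.w ∈ zpowers g) (hg : g ∉ Main.setup.ZL) (hy : y ∈ zpowers g)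
    (ho : Odd (orderOf y)) : 2 * Nat.card (centralizer ({g} : Set Co1)) ≤
      Nat.card (centralizer ({TwoB.w} : Set Co1) ⊓ centralizer ({y} : Set Co1) : Subgroup Co1) := by
  have := LThree.fin_co1
  have hgw : g * TwoB.w = TwoB.w * g := comm_of_mem hw rfl
  have hyw : y * TwoB.w = TwoB.w * y := comm_of_mem hw (comm_of_mem hy rfl).symm
  have hyL := odd_mem_L ho hyw
  have hv := not_comm_v hgw hg
  have hyv : y * TwoB.v = TwoB.v * y := Main.setup.cent_LZ y hyL TwoB.v Main.setup.v_mem
  set K : Subgroup Co1 := centralizer ({TwoB.w} : Set Co1) ⊓ centralizer ({y} : Set Co1) with hK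
  have hle : centralizer ({g} : Set Co1) ≤ K := by
    intro c hc
    have hc' := mem_centralizer_singleton_iff.1 hc
    exact ⟨mem_centralizer_singleton_iff.2 (comm_of_mem hw hc'), mem_centralizer_singleton_iff.2 (comm_of_mem hy hc')⟩
  have hvK : TwoB.v ∈ K := ⟨mem_centralizer_singleton_iff.2 TwoB.wv.symm, mem_centralizer_singleton_iff.2 hyv.symm⟩
  have h1 := relIndex_mul_card hle
  have h2 : (centralizer ({g} : Set Co1)).relIndex K ≠ 1 := by
    intro h3
    exact hv (mem_centralizer_singleton_iff.1 ((relIndex_eq_one.1 h3) hvK)).symm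
  have h3 : (centralizer ({g} : Set Co1)).relIndex K ≠ 0 := by
    intro h4
    rw [h4, zero_mul] at h1
    exact Nat.card_pos.ne h1
  rw [← h1]
  exact Nat.mul_le_mul_right _ (by omega)

/-- `|C(u) ∩ C(y)| ≤ |y| n`, `n` a bound for the centralizers of the involutions of `C(y) / ⟨y⟩` -/
theorem inf_le {u y : Co1} (hu : orderOf u = 2) (huy : u * y = y * u) (ho : Odd (orderOf y)) {n : ℕ}
    (hn : ∀ x : XX y, orderOf x = 2 → Nat.card (centralizer ({x} : Set (XX y))) ≤ n) :
    Nat.card (centralizer ({u} : Set Co1) ⊓ centralizer ({y} : Set Co1) : Subgroup Co1) ≤ orderOf y * n := by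
  have := LThree.fin_co1
  have : Finite (XX y) := Quotient.finite _
  set zb : XX y := LThreeMB.mk y huy with hzb
  have hzb2 : orderOf zb = 2 := by
    have : Fact (Nat.Prime 2) := ⟨by norm_num⟩
    refine orderOf_eq_prime ?_ ?_
    · have hck : u ^ 2 * y = y * u ^ 2 := (show Commute u y from huy).pow_left 2
      have h2 : zb ^ 2 = LThreeMB.mk y hck := rfl
      rw [h2, LThreeMB.mk_eq_one]
      exact ⟨0, by rw [zpow_zero, ← hu, pow_orderOf_eq_one]⟩
    · intro h
      rw [hzb, LThreeMB.mk_eq_one] at h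
      have h3 : u ∈ zpowers y := h
      have h4 := orderOf_dvd_of_mem_zpowers h3
      rw [hu] at h4
      exact absurd (even_iff_two_dvd.2 h4) (Nat.not_even_iff_odd.2 ho)
  have h7 := hn zb hzb2
  set K : Subgroup Co1 := centralizer ({u} : Set Co1) ⊓ centralizer ({y} : Set Co1) with hK
  let f : ↥K →* XX y := (QuotientGroup.mk' (Zx y)).comp (Subgroup.inclusion inf_le_right)
  have hrange : f.range ≤ centralizer ({zb} : Set (XX y)) := by
    rintro _ ⟨k, rfl⟩
    rw [mem_centralizer_singleton_iff]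
    have h1 := mem_centralizer_singleton_iff.1 (k.2.1)
    have h2 := mem_centralizer_singleton_iff.1 (k.2.2)
    change (QuotientGroup.mk (⟨(k : Co1), _⟩ : centralizer ({y} : Set Co1)) : XX y) * QuotientGroup.mk ⟨u, _⟩ =
      QuotientGroup.mk ⟨u, _⟩ * QuotientGroup.mk ⟨(k : Co1), _⟩
    rw [← QuotientGroup.mk_mul, ← QuotientGroup.mk_mul]
    exact congrArg _ (Subtype.ext h1)
  have hker : Nat.card f.ker ≤ orderOf y := by
    have h1 : f.ker.map K.subtype ≤ zpowers y := by
      rintro _ ⟨k, hk, rfl⟩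
      have h2 := mem_centralizer_singleton_iff.1 (k.2.2)
      have h3 : LThreeMB.mk y h2 = 1 := hk
      rw [LThreeMB.mk_eq_one] at h3
      obtain ⟨i, hi⟩ := h3
      exact ⟨i, hi⟩
    have h2 := Subgroup.card_le_of_le h1
    rwa [Subgroup.card_map_of_injective K.subtype_injective, Nat.card_zpowers] at h2
  have hcard : Nat.card K = Nat.card f.ker * Nat.card f.range := by
    rw [← Subgroup.card_mul_index f.ker, Subgroup.index_ker]
  rw [hcard]
  exact Nat.mul_le_mul hker ((Subgroup.card_le_of_le hrange).trans h7)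

/-! ### involutions of `A₉` -/

theorem card_cent_alt {n : ℕ} (τ : alternatingGroup (Fin n)) (c : Perm (Fin n)) (hc : Perm.sign c = -1)
    (hcτ : c * τ = τ * c) : 2 * Nat.card ↥(centralizer ({τ} : Set (alternatingGroup (Fin n)))) =
      Nat.card ↥(centralizer ({(τ : Perm (Fin n))} : Set (Perm (Fin n)))) := by
  let C := centralizer ({(τ : Perm (Fin n))} : Set (Perm (Fin n)))
  let f : ↥C →* ℤˣ := Perm.sign.comp C.subtype
  have hf : Function.Surjective f := by
    intro u
    rcases Int.units_eq_one_or u with rfl | rfl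
    · exact ⟨1, map_one f⟩
    · exact ⟨⟨c, mem_centralizer_singleton_iff.2 hcτ⟩, hc⟩
  have h1 : f.ker.index = 2 := by
    rw [Subgroup.index_ker, MonoidHom.range_eq_top.2 hf, card_top, Nat.card_eq_fintype_card]
    rfl
  have e : ↥f.ker ≃ ↥(centralizer ({τ} : Set (alternatingGroup (Fin n)))) :=
    { toFun := fun g => ⟨⟨(g : ↥C), Equiv.Perm.mem_alternatingGroup.2 (MonoidHom.mem_ker.1 g.2)⟩,
        mem_centralizer_singleton_iff.2 (Subtype.ext (mem_centralizer_singleton_iff.1 (g : ↥C).2))⟩
      invFun := fun g => ⟨⟨((g : alternatingGroup (Fin n)) : Perm (Fin n)),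
        mem_centralizer_singleton_iff.2 (congrArg Subtype.val (mem_centralizer_singleton_iff.1 g.2))⟩,
        MonoidHom.mem_ker.2 (Equiv.Perm.mem_alternatingGroup.1 (g : alternatingGroup (Fin n)).2)⟩
      left_inv := fun g => rfl
      right_inv := fun g => rfl }
  have h2 := card_mul_index f.ker
  rw [h1, Nat.card_congr e] at h2
  rw [mul_comm]
  exact h2

theorem card_le_cent {n : ℕ} (τ : alternatingGroup (Fin n)) : Nat.card ↥(centralizer ({τ} : Set (alternatingGroup (Fin n)))) ≤
      Nat.card ↥(centralizer ({(τ : Perm (Fin n))} : Set (Perm (Fin n)))) := by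
  refine Nat.card_le_card_of_injective (fun g => ⟨((g : alternatingGroup (Fin n)) : Perm (Fin n)),
        mem_centralizer_singleton_iff.2 (congrArg Subtype.val (mem_centralizer_singleton_iff.1 g.2))⟩) ?_
  intro a b h
  have h1 : ((a : alternatingGroup (Fin n)) : Perm (Fin n)) = ((b : alternatingGroup (Fin n)) : Perm (Fin n)) :=
    Subtype.mk.inj h
  exact Subtype.ext (Subtype.ext h1)

/-- centralizers of involutions of `A₉` -/
theorem card_nine {τ : alternatingGroup (Fin 9)} (h : orderOf τ = 2) :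
    Nat.card ↥(centralizer ({τ} : Set (alternatingGroup (Fin 9)))) ≤ 480 := by
  set σ : Perm (Fin 9) := (τ : Perm (Fin 9)) with hσ
  have ho : orderOf σ = 2 := (orderOf_coe τ).trans h
  obtain ⟨k, hk⟩ := Perm.cycleType_prime_order (σ := σ) (by rw [ho]; norm_num)
  rw [ho] at hk
  have hs := Perm.sum_cycleType σ
  have hle : σ.support.card ≤ 9 := by simpa using Finset.card_le_univ σ.support
  have hsign := Perm.sign_of_cycleType σ
  rw [Perm.mem_alternatingGroup.1 τ.2] at hsign
  rw [hk, Multiset.sum_replicate, smul_eq_mul] at hs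
  rw [hk, Multiset.sum_replicate, smul_eq_mul, Multiset.card_replicate] at hsign
  have hcard := Perm.nat_card_centralizer σ
  rw [hk, Fintype.card_fin] at hcard
  have hk3 : k ≤ 3 := by omega
  interval_cases k
  · exact absurd hsign (by decide)
  · -- two transpositions
    have h4 : σ.support.card = 4 := by omega
    have h5 : 1 < (σ.supportᶜ).card := by
      rw [Finset.card_compl, h4, Fintype.card_fin]; norm_num
    obtain ⟨a, ha, b, hb, hab⟩ := Finset.one_lt_card.1 h5
    have hc := card_cent_alt τ (swap a b) (Perm.sign_swap hab) (by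
      refine Perm.Disjoint.commute ?_
      rw [Perm.disjoint_iff_disjoint_support, Perm.support_swap hab]
      rw [Finset.disjoint_left]
      intro x hx hx'
      simp only [Finset.mem_insert, Finset.mem_singleton] at hx
      rcases hx with rfl | rfl
      · exact (Finset.mem_compl.1 ha) hx'
      · exact (Finset.mem_compl.1 hb) hx')
    have h6 : Nat.card ↥(centralizer ({σ} : Set (Perm (Fin 9)))) = 960 := by
      rw [hcard]; decide
    rw [← hσ, h6] at hc
    omega
  · exact absurd hsign (by decide)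
  · refine (card_le_cent τ).trans ?_
    rw [← hσ, hcard]
    decide


theorem card_cent_congr {G H : Type*} [Group G] [Group H] (e : G ≃* H) (x : G) :
    Nat.card (centralizer ({x} : Set G)) = Nat.card (centralizer ({e x} : Set H)) := by
  refine Nat.card_congr
    { toFun := fun c => ⟨e (c : G), mem_centralizer_singleton_iff.2 (by
        rw [← map_mul, mem_centralizer_singleton_iff.1 c.2, map_mul])⟩
      invFun := fun c => ⟨e.symm (c : H), mem_centralizer_singleton_iff.2 (by
        have h1 := congrArg e.symm (mem_centralizer_singleton_iff.1 c.2)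
        simpa using h1)⟩
      left_inv := fun c => Subtype.ext (e.symm_apply_apply (c : G))
      right_inv := fun c => Subtype.ext (e.apply_symm_apply (c : H)) }

theorem w_order : orderOf TwoB.w = 2 := by
  have : Fact (Nat.Prime 2) := ⟨Nat.prime_two⟩
  exact orderOf_eq_prime (by rw [pow_two, TwoB.ww]) TwoB.w_ne

/-- **the class 3D** -/
theorem out3 (g y : Co1) (hw : TwoB.w ∈ zpowers g) (hg : g ∉ Main.setup.ZL) (hy : y ∈ zpowers g) (h3 : orderOf y = 3)
    (hf : fr y = 2 ^ 8) : Bd 1218 g := by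
  have := LThree.fin_co1
  obtain ⟨t, ht, hft, ⟨e⟩, -⟩ := LThreeMB.CEight.nine
  obtain ⟨k, hk⟩ := LThreeCo1.Ranks.eight y t h3 ht hf hft
  obtain ⟨-, ⟨f⟩⟩ := LThreeMB.exists_XX_equiv hk
  have ho : Odd (orderOf y) := by rw [h3]; decide
  have hwy : TwoB.w * y = y * TwoB.w := (comm_of_mem hw (comm_of_mem hy rfl).symm).symm
  have h1 := half hw hg hy ho
  have h2 := inf_le w_order hwy ho (n := 480) (fun x hx => by
    rw [card_cent_congr (f.trans e) x]
    exact card_nine (by rw [MulEquiv.orderOf_eq, hx]))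
  rw [h3] at h2
  show Nat.card _ ≤ 1218
  omega

end Cfsg.Agent.H868.QS.Outer
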